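import Cfsg.Agent.H277.U33.Psu

/-!
# TwoF, `U₃(3)` in characteristic 2 (helper76): codes for the matrices of `SU₃(3)`

A matrix over `K9` is coded by a natural number with 18 digits in base 3.  `mulc`, `barc`: product and entrywise
conjugation on codes.  `Rp g c`: the element `g` of `SU₃(3)` has the code `c`.
-/

set_option autoImplicit false

namespace Cfsg.Agent.TwoF.XL.U33

open Cfsg.Agent.Classification.RTwo.UThreeThree

/-- the group -/
abbrev G : Type := Cfsg.SU 3 K9 3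

/-- digits to a number -/
def enc : List ℕ → ℕ
  | [] => 0
  | r :: l => Nat.add (Nat.mod r 3) (Nat.mul 3 (enc l))

theorem cast_enc (k : ℕ) : ∀ l : List ℕ, ((enc l / 3 ^ k : ℕ) : ZMod 3) = ((l.getD k 0 : ℕ) : ZMod 3) := by
  induction k with
  | zero =>
    intro l
    cases l with
    | nil => rfl
    | cons r l =>
      show (((r % 3 + 3 * enc l) / 3 ^ 0 : ℕ) : ZMod 3) = (r : ZMod 3)
      rw [pow_zero, Nat.div_one, Nat.cast_add, Nat.cast_mul, ZMod.natCast_mod, ZMod.natCast_self, zero_mul, add_zero]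
  | succ k ih =>
    intro l
    cases l with
    | nil =>
      show ((0 / 3 ^ (k + 1) : ℕ) : ZMod 3) = ((0 : ℕ) : ZMod 3)
      rw [Nat.zero_div]
    | cons r l =>
      show (((r % 3 + 3 * enc l) / 3 ^ (k + 1) : ℕ) : ZMod 3) = ((l.getD k 0 : ℕ) : ZMod 3)
      have h : (r % 3 + 3 * enc l) / 3 = enc l := by omega
      rw [pow_succ', ← Nat.div_div_eq_div_mul, h, ih]

/-- real part of an entry (modulo 3) -/
def re (n i j : ℕ) : ℕ := Nat.div n (Nat.pow 3 (Nat.add (Nat.mul 6 i) (Nat.mul 2 j)))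
/-- imaginary part of an entry (modulo 3) -/
def im (n i j : ℕ) : ℕ := Nat.div n (Nat.pow 3 (Nat.add (Nat.add (Nat.mul 6 i) (Nat.mul 2 j)) 1))

/-- the matrix with a given code -/
def dec (n : ℕ) : Matrix (Fin 3) (Fin 3) K9 := Matrix.of fun i j => ⟨(re n i j : ℕ), (im n i j : ℕ)⟩

theorem dec_apply (n : ℕ) (i j : Fin 3) : dec n i j = ⟨(re n i j : ℕ), (im n i j : ℕ)⟩ := rfl

/-- the code of a matrix given by real and imaginary parts -/
def encM (f g : ℕ → ℕ → ℕ) : ℕ :=
  enc [f 0 0, g 0 0, f 0 1, g 0 1, f 0 2, g 0 2, f 1 0, g 1 0, f 1 1, g 1 1, f 1 2, g 1 2,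
    f 2 0, g 2 0, f 2 1, g 2 1, f 2 2, g 2 2]

theorem dec_encM (f g : ℕ → ℕ → ℕ) (i j : Fin 3) : dec (encM f g) i j = ⟨(f i j : ℕ), (g i j : ℕ)⟩ := by
  refine QuadraticAlgebra.ext ((cast_enc (6 * i + 2 * j) _).trans ?_) ((cast_enc (6 * i + 2 * j + 1) _).trans ?_) <;>
    fin_cases i <;> fin_cases j <;> rfl

/-- one term of the real part -/
def tR (a b i j k : ℕ) : ℕ :=
  Nat.add (Nat.mul (re a i k) (re b k j)) (Nat.mul 2 (Nat.mul (im a i k) (im b k j)))
/-- one term of the imaginary part -/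
def tI (a b i j k : ℕ) : ℕ := Nat.add (Nat.mul (re a i k) (im b k j)) (Nat.mul (im a i k) (re b k j))

/-- product of codes -/
def mulc (a b : ℕ) : ℕ :=
  encM (fun i j => Nat.add (Nat.add (tR a b i j 0) (tR a b i j 1)) (tR a b i j 2))
    (fun i j => Nat.add (Nat.add (tI a b i j 0) (tI a b i j 1)) (tI a b i j 2))

/-- entrywise conjugation of codes -/
def barc (a : ℕ) : ℕ := encM (fun i j => re a i j) (fun i j => Nat.mul 2 (im a i j))

theorem term_eq (a b : ℕ) (i j k : Fin 3) : dec a i k * dec b k j = ⟨(tR a b i j k : ℕ), (tI a b i j k : ℕ)⟩ := by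
  have h2 : (2 : ZMod 3) = -1 := by decide
  refine QuadraticAlgebra.ext ?_ ?_
  · show (re a i k : ZMod 3) * (re b k j : ZMod 3) + -1 * (im a i k : ZMod 3) * (im b k j : ZMod 3) =
      ((re a i k * re b k j + 2 * (im a i k * im b k j) : ℕ) : ZMod 3)
    push_cast
    rw [h2]
    ring
  · show (re a i k : ZMod 3) * (im b k j : ZMod 3) + (im a i k : ZMod 3) * (re b k j : ZMod 3) +
      0 * (im a i k : ZMod 3) * (im b k j : ZMod 3) = ((re a i k * im b k j + im a i k * re b k j : ℕ) : ZMod 3)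
    push_cast
    ring

theorem dec_mulc (a b : ℕ) : dec (mulc a b) = dec a * dec b := by
  refine Matrix.ext fun i j => ?_
  rw [Matrix.mul_apply, Fin.sum_univ_three, term_eq, term_eq, term_eq]
  refine (dec_encM _ _ i j).trans (QuadraticAlgebra.ext ?_ ?_)
  · show ((tR a b i j 0 + tR a b i j 1 + tR a b i j 2 : ℕ) : ZMod 3) =
      (tR a b i j 0 : ZMod 3) + (tR a b i j 1 : ZMod 3) + (tR a b i j 2 : ZMod 3)
    rw [Nat.cast_add, Nat.cast_add]
  · show ((tI a b i j 0 + tI a b i j 1 + tI a b i j 2 : ℕ) : ZMod 3) =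
      (tI a b i j 0 : ZMod 3) + (tI a b i j 1 : ZMod 3) + (tI a b i j 2 : ZMod 3)
    rw [Nat.cast_add, Nat.cast_add]

theorem dec_barc (a : ℕ) (i j : Fin 3) : dec (barc a) i j = star (dec a i j) := by
  have h2 : (2 : ZMod 3) = -1 := by decide
  refine (dec_encM _ _ i j).trans (QuadraticAlgebra.ext ?_ ?_)
  · show (re a i j : ZMod 3) = (re a i j : ZMod 3) + 0 * (im a i j : ZMod 3)
    rw [zero_mul, add_zero]
  · show ((2 * im a i j : ℕ) : ZMod 3) = -(im a i j : ZMod 3)
    push_cast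
    rw [h2, neg_one_mul]

/-- `3 ^ 18` -/
def NN : ℕ := 387420489

theorem mod_eq_of_digits {a b : ℕ} (n : ℕ) (h : ∀ k < n, a / 3 ^ k % 3 = b / 3 ^ k % 3) : a % 3 ^ n = b % 3 ^ n := by
  induction n with
  | zero => rw [pow_zero, Nat.mod_one, Nat.mod_one]
  | succ n ih =>
    rw [Nat.mod_pow_succ, Nat.mod_pow_succ, ih fun k hk => h k (Nat.lt_succ_of_lt hk), h n (Nat.lt_succ_self n)]

theorem mod_eq_of_dec {a b : ℕ} (h : dec a = dec b) : Nat.mod a NN = Nat.mod b NN := by
  refine mod_eq_of_digits 18 fun k hk => ?_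
  have hi : k / 6 < 3 := by omega
  have hj : k % 6 / 2 < 3 := by omega
  have h1 := congrFun (congrFun h ⟨_, hi⟩) ⟨_, hj⟩
  refine (ZMod.natCast_eq_natCast_iff' _ _ 3).1 ?_
  rcases Nat.mod_two_eq_zero_or_one k with e | e
  · have e1 : k = 6 * (k / 6) + 2 * (k % 6 / 2) := by omega
    rw [e1]
    exact congrArg QuadraticAlgebra.re h1
  · have e1 : k = 6 * (k / 6) + 2 * (k % 6 / 2) + 1 := by omega
    rw [e1]
    exact congrArg QuadraticAlgebra.im h1

/-- `g` has the code `c` -/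
def Rp (g : G) (c : ℕ) : Prop := mt g = dec c

/-- the code of `1` -/
def c1 : ℕ := 43053283

theorem rp_one : Rp 1 c1 := by
  show (1 : Matrix (Fin 3) (Fin 3) K9) = dec c1
  decide +kernel

theorem Rp.mul {g h : G} {a b : ℕ} (hg : Rp g a) (hh : Rp h b) : Rp (g * h) (mulc a b) := by
  show mt g * mt h = _
  rw [dec_mulc, hg, hh]

theorem Rp.eq {g h : G} {a b : ℕ} (hg : Rp g a) (hh : Rp h b) (e : a = b) : g = h :=
  su_ext (hg.trans (e ▸ hh.symm))

theorem Rp.mod {g h : G} {a b : ℕ} (hg : Rp g a) (hh : Rp h b) (e : g = h) : Nat.mod a NN = Nat.mod b NN :=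
  mod_eq_of_dec (hg.symm.trans (e ▸ hh))

theorem Rp.ne {g h : G} {a b : ℕ} (hg : Rp g a) (hh : Rp h b) (e : Nat.mod a NN ≠ Nat.mod b NN) : g ≠ h :=
  fun e' => e (hg.mod hh e')

/-- the element with a given code -/
noncomputable def el (c : ℕ) : G := if h : IsGood (dec c) then h.su else 1

theorem rp_el {c : ℕ} (h : IsGood (dec c)) : Rp (el c) c := by
  show mt (if h : IsGood (dec c) then h.su else 1) = dec c
  rw [dif_pos h]
  rfl

/-- the field automorphism -/
noncomputable def σ : MulAut G := LieClassical.FieldTransfer.suCongr 3 3 (starRingAut : K9 ≃+* K9)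

theorem mt_σ (g : G) (i j : Fin 3) : mt (σ g) i j = star (mt g i j) := rfl

theorem Rp.bar {g : G} {a : ℕ} (hg : Rp g a) : Rp (σ g) (barc a) :=
  Matrix.ext fun i j => by rw [mt_σ, dec_barc, hg]

theorem σ_σ (g : G) : σ (σ g) = g := su_ext (Matrix.ext fun i j => by
  show mt (σ (σ g)) i j = mt g i j
  rw [mt_σ, mt_σ, star_star])

/-- the value of a word in two letters -/
def wd {M : Type} (mul : M → M → M) (one a b : M) : List Bool → M
  | [] => one
  | x :: l => mul (cond x a b) (wd mul one a b l)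

theorem rp_wd {g h : G} {a b : ℕ} (hg : Rp g a) (hh : Rp h b) :
    ∀ l : List Bool, Rp (wd (· * ·) 1 g h l) (wd mulc c1 a b l)
  | [] => rp_one
  | true :: l => hg.mul (rp_wd hg hh l)
  | false :: l => hh.mul (rp_wd hg hh l)

theorem wd_mem {g h : G} {B : Subgroup G} (hg : g ∈ B) (hh : h ∈ B) : ∀ l : List Bool, wd (· * ·) 1 g h l ∈ B
  | [] => one_mem B
  | true :: l => mul_mem hg (wd_mem hg hh l)
  | false :: l => mul_mem hh (wd_mem hg hh l)

end Cfsg.Agent.TwoF.XL.U33
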