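import Cfsg.Agent.TwoF.XL.U33.Grp
import Cfsg.Agent.TwoF.Gen.AStp
import Cfsg.Agent.S2089
import Cfsg.Agent.H597.HT6.UGrp

/-!
# TwoF, `U₃(3)` in characteristic 2 (helper76): the group `Y` is `U₃(3) : 2`
-/

set_option autoImplicit false

namespace Cfsg.Agent.TwoF.XL.U33

open Cfsg.Agent.Classification.RTwo.UThreeThree Subgroup

theorem card_G : Nat.card G = 6048 := H597.HT6.card_su33 card_k9'

theorem finite_G : Finite G := Nat.finite_of_card_ne_zero (by rw [card_G]; norm_num)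

theorem card_aut_G : Nat.card (MulAut G) = 12096 := by
  rw [← H597.HT6.card_aut33 card_k9']
  exact Nat.card_congr (MulAut.congr (psuEquiv card_k9)).symm.toEquiv

variable {Y : Type} [Group Y]

/-- `K = ι(G)`, and `s` induces the field automorphism -/
structure Fr (K : Subgroup Y) (ι : G →* Y) (s : Y) : Prop where
  inj : Function.Injective ι
  range : ι.range = K
  sq : s * s = 1
  notMem : s ∉ K
  conj : ∀ g, s * ι g * s⁻¹ = ι (σ g)
  card : Nat.card Y = 12096

theorem exists_fr {F : Type} [Field F] [Fintype F] (hF : Fintype.card F = 3 ^ 2) [Finite Y] {V : Type}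
    [AddCommGroup V] [Module (ZMod 2) V] {K : Subgroup Y} {ρ : Representation (ZMod 2) Y V} (h : Stp 2 K ρ)
    (e : Nonempty (K ⧸ center K ≃* PSU 3 F 3)) (hK : K ≠ ⊤) : ∃ ι s, Fr K ι s := by
  obtain ⟨π₀, φ₀, F₀⟩ := h.exists_frm e
  have h1 := F₀.card_center_dvd' h.perfect (S2089.result 3 3 hF le_rfl (by norm_num) (by simp))
  have hz : center K = ⊥ := card_eq_one.1 (Nat.dvd_one.1 h1)
  obtain ⟨π, φ, F₁⟩ := h.exists_frm (S := G) (e.map fun f => f.trans ((psuEquiv hF).trans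
    (LieClassical.FieldTransfer.suCongr 3 3 (FiniteField.ringEquivOfCardEq (hF.trans card_k9'.symm)))))
  have hπ : Function.Injective π := (MonoidHom.ker_eq_bot_iff _).1 (F₁.ker_π.trans hz)
  have hφ : Function.Injective φ := by
    rw [← MonoidHom.ker_eq_bot_iff, F₁.ker_φ, h.centralizer_eq, hz, Subgroup.map_bot]
  let ε : K ≃* G := MulEquiv.ofBijective π ⟨hπ, F₁.surj⟩
  have fa : Finite (MulAut G) := Nat.finite_of_card_ne_zero (by rw [card_aut_G]; norm_num)
  have c1 : Nat.card Y ≤ 12096 := card_aut_G ▸ Nat.card_le_card_of_injective φ hφ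
  have c2 : Nat.card K = 6048 := (Nat.card_congr ε.toEquiv).trans card_G
  have c3 := K.card_mul_index
  have c4 : K.index ≠ 1 := fun e => hK (index_eq_one.1 e)
  have c5 : K.index ≠ 0 := index_ne_zero_of_finite
  have c6 : Nat.card Y = 12096 := by
    rw [c2] at c3
    omega
  obtain ⟨s, hs⟩ := ((Nat.bijective_iff_injective_and_card φ).2 ⟨hφ, c6.trans card_aut_G.symm⟩).2 σ
  refine ⟨K.subtype.comp ε.symm.toMonoidHom, s, K.subtype_injective.comp ε.symm.injective, ?_, hφ ?_, fun hm => ?_,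
    fun g => ?_, c6⟩
  · rw [MonoidHom.range_comp, MonoidHom.range_eq_top.2 ε.symm.surjective, ← MonoidHom.range_eq_map, range_subtype]
  · rw [map_mul, hs, map_one]
    exact MulEquiv.ext σ_σ
  · exact σ_ne_conj _ (hs.symm.trans (F₁.φ_coe ⟨s, hm⟩))
  · have h2 := F₁.conj s (ε.symm g) ⟨_, h.normal.conj_mem _ (ε.symm g).2 s⟩ rfl
    rw [hs, show π (ε.symm g) = g from ε.apply_symm_apply g] at h2
    show _ = ((ε.symm (σ g) : K) : Y)
    rw [h2, show ∀ x, ε.symm (π x) = x from ε.symm_apply_apply]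
    rfl

namespace Fr

variable {K : Subgroup Y} {ι : G →* Y} {s : Y} (f : Fr K ι s)
include f

theorem mem (g : G) : ι g ∈ K := f.range ▸ ⟨g, rfl⟩

theorem comm (g : G) : s * ι g = ι (σ g) * s := by rw [← f.conj, inv_mul_cancel_right]

theorem outer_mul (g h : G) : ι g * s * (ι h * s) = ι (g * σ h) := by
  rw [map_mul, mul_assoc, ← mul_assoc s, f.comm, mul_assoc, f.sq, mul_one]

theorem outer_notMem (g : G) : ι g * s ∉ K := fun h => f.notMem ((K.mul_mem_cancel_left (f.mem g)).1 h)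

theorem index [Finite Y] : K.index = 2 := by
  have c2 : Nat.card K = 6048 := by
    rw [← f.range, ← card_G]
    exact (Nat.card_congr (MonoidHom.ofInjective f.inj).toEquiv).symm
  have c3 := K.card_mul_index
  rw [c2, f.card] at c3
  omega

/-- a Sylow 2-subgroup of `Y` -/
def U : Subgroup Y where
  carrier := {u | ∃ h ∈ H, u = ι h ∨ u = ι h * s}
  mul_mem' := by
    rintro _ _ ⟨a, ha, rfl | rfl⟩ ⟨b, hb, rfl | rfl⟩
    · exact ⟨_, mul_mem ha hb, Or.inl (map_mul ι a b).symm⟩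
    · exact ⟨_, mul_mem ha hb, Or.inr (by rw [map_mul, mul_assoc])⟩
    · exact ⟨_, mul_mem ha (H_bar hb), Or.inr (by rw [map_mul, mul_assoc, mul_assoc, f.comm])⟩
    · exact ⟨_, mul_mem ha (H_bar hb), Or.inl (f.outer_mul a b)⟩
  one_mem' := ⟨1, one_mem H, Or.inl (map_one ι).symm⟩
  inv_mem' := by
    rintro _ ⟨a, ha, rfl | rfl⟩
    · exact ⟨_, inv_mem ha, Or.inl (map_inv ι a).symm⟩
    · refine ⟨_, H_bar (inv_mem ha), Or.inr (inv_eq_of_mul_eq_one_right ?_)⟩
      rw [f.outer_mul, σ_σ, mul_inv_cancel, map_one]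

theorem mem_U {u : Y} : u ∈ f.U ↔ ∃ h ∈ H, u = ι h ∨ u = ι h * s := Iff.rfl

theorem isPGroup_U : IsPGroup 2 f.U := by
  rintro ⟨_, a, ha, rfl | rfl⟩
  · exact ⟨3, Subtype.ext (by
      show ι a ^ 8 = 1
      rw [← map_pow, H_pow ha, map_one])⟩
  · exact ⟨4, Subtype.ext (by
      show (ι a * s) ^ (2 * 8) = 1
      rw [pow_mul, pow_two, f.outer_mul, ← map_pow, H_pow (mul_mem ha (H_bar ha)), map_one])⟩

theorem exists_conj [Finite Y] {A : Subgroup Y} (hA : IsPGroup 2 A) :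
    ∃ g : Y, A.map (MulAut.conj g).toMonoidHom ≤ f.U := by
  have := finite_G
  obtain ⟨P, hP⟩ := f.isPGroup_U.exists_le_sylow
  obtain ⟨Q, hQ⟩ := hA.exists_le_sylow
  have c1 : Nat.card P = 64 := by
    rw [P.card_eq_multiplicity, f.card, show (12096 : ℕ) = 2 ^ 6 * 189 by norm_num,
      Nat.factorization_mul (by norm_num) (by norm_num), Nat.Prime.factorization_pow Nat.prime_two, Finsupp.add_apply,
      Finsupp.single_eq_same, Nat.factorization_eq_zero_of_not_dvd (by norm_num)]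
    rfl
  have h1 : H.map ι < f.U := by
    refine lt_of_le_of_ne ?_ fun e => ?_
    · rintro _ ⟨a, ha, rfl⟩
      exact ⟨a, ha, Or.inl rfl⟩
    · have h2 : ι 1 * s ∈ H.map ι := e ▸ ⟨1, one_mem H, Or.inr rfl⟩
      obtain ⟨a, -, h3⟩ := h2
      exact f.outer_notMem 1 (h3 ▸ f.mem a)
  have c2 : Nat.card (H.map ι) < Nat.card f.U :=
    lt_of_not_ge fun h => h1.ne (eq_of_le_of_card_ge h1.le h)
  rw [card_map_of_injective f.inj] at c2
  obtain ⟨n, hn⟩ := IsPGroup.iff_card.1 f.isPGroup_U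
  have c3 : 2 ^ 5 < 2 ^ n := hn ▸ lt_of_le_of_lt le_card_H c2
  have c4 : 2 ^ 6 ≤ 2 ^ n := Nat.pow_le_pow_right (by norm_num) ((Nat.pow_lt_pow_iff_right (by norm_num)).1 c3)
  have h2 : f.U = P := eq_of_le_of_card_ge hP (by rw [hn]; exact c1.le.trans c4)
  obtain ⟨g, hg⟩ := MulAction.exists_smul_eq Y Q P
  refine ⟨g, ?_⟩
  rw [h2, ← hg]
  exact map_mono hQ

end Fr

end Cfsg.Agent.TwoF.XL.U33
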