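import Cfsg.Agent.TwoF.XL.U33.Code

/-!
# TwoF, `U₃(3)` in characteristic 2 (helper76): the Sylow 2-subgroup `H` and the elements used
-/

set_option autoImplicit false

namespace Cfsg.Agent.TwoF.XL.U33

open Cfsg.Agent.Classification.RTwo.UThreeThree

/-! ### the subgroup `H` of order 32 -/

/-- the codes of the 32 monomial matrices which fix the third axis -/
def LH : List ℕ :=
  [86094180, 43048188, 129142359, 258284709, 43047468, 86094918, 258282531, 129144555, 129140919, 258281811, 43048935,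
    86097843, 258281109, 129141675, 86095683, 43051149, 43053283, 86106565, 258300010, 129179530, 86100005, 43059845,
    129159848, 258319694, 258286890, 129153288, 86113128, 43086090, 129146730, 258293454, 43066410, 86132814]

/-- square of a code -/
def sqc (a : ℕ) : ℕ := mulc a a

theorem LH_good : ∀ c ∈ LH, IsGood (dec c) := by decide +kernel
theorem LH_mul : ∀ a ∈ LH, ∀ b ∈ LH, mulc a b ∈ LH := by decide +kernel
theorem LH_bar : ∀ a ∈ LH, barc a ∈ LH := by decide +kernel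
theorem LH_pow : ∀ a ∈ LH, sqc (sqc (sqc a)) = c1 := by decide +kernel
theorem LH_one : c1 ∈ LH := by decide +kernel
theorem LH_mod : ∀ a ∈ LH, Nat.mod a NN = a := by decide +kernel
theorem LH_nodup : LH.Nodup := by decide +kernel

theorem pow_eight {g : G} {c : ℕ} (hc : c ∈ LH) (h : Rp g c) : g ^ 8 = 1 := by
  have h2 := h.mul h
  have h4 := h2.mul h2
  have h8 := (h4.mul h4).eq rp_one (LH_pow c hc)
  rw [← h8]
  simp only [pow_succ, pow_zero, one_mul, mul_assoc]

/-- `H` as a submonoid -/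
def HM : Submonoid G where
  carrier := {g | ∃ c ∈ LH, Rp g c}
  mul_mem' := fun ⟨a, ha, h⟩ ⟨b, hb, h'⟩ => ⟨_, LH_mul a ha b hb, h.mul h'⟩
  one_mem' := ⟨c1, LH_one, rp_one⟩

/-- a Sylow 2-subgroup -/
def H : Subgroup G where
  toSubmonoid := HM
  inv_mem' := fun {g} hg => by
    obtain ⟨c, hc, h⟩ := id hg
    have h8 := pow_eight hc h
    rw [pow_succ] at h8
    rw [← eq_inv_of_mul_eq_one_left h8]
    exact pow_mem (S := HM) hg 7

theorem mem_H {g : G} : g ∈ H ↔ ∃ c ∈ LH, Rp g c := Iff.rfl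

theorem el_mem_H {c : ℕ} (hc : c ∈ LH) : el c ∈ H := ⟨c, hc, rp_el (LH_good c hc)⟩

theorem H_pow {g : G} (hg : g ∈ H) : g ^ 8 = 1 := by
  obtain ⟨c, hc, h⟩ := hg
  exact pow_eight hc h

theorem H_bar {g : G} (hg : g ∈ H) : σ g ∈ H := by
  obtain ⟨c, hc, h⟩ := hg
  exact ⟨_, LH_bar c hc, h.bar⟩

theorem isPGroup_H : IsPGroup 2 H := fun g => ⟨3, Subtype.ext (H_pow g.2)⟩

theorem le_card_H [Finite G] : 32 ≤ Nat.card H := by
  have h1 : Nat.card {c // c ∈ LH.toFinset} = 32 := by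
    rw [Nat.card_eq_fintype_card, Fintype.card_coe, List.toFinset_card_of_nodup LH_nodup]
    rfl
  rw [← h1]
  refine Nat.card_le_card_of_injective (fun c => ⟨el c.1, el_mem_H (List.mem_toFinset.1 c.2)⟩) fun a b e => ?_
  have ha := List.mem_toFinset.1 a.2
  have hb := List.mem_toFinset.1 b.2
  have h2 := (rp_el (LH_good _ ha)).mod (rp_el (LH_good _ hb)) (congrArg Subtype.val e)
  rw [LH_mod _ ha, LH_mod _ hb] at h2
  exact Subtype.ext h2

/-! ### involutions -/

/-- `diag(-1, -1, 1)` -/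
def cT : ℕ := 43059845
/-- `diag(1, -1, -1)` -/
def cT' : ℕ := 86106565

theorem rp_T : Rp (el cT) cT := rp_el (by decide +kernel)
theorem rp_T' : Rp (el cT') cT' := rp_el (by decide +kernel)

/-- conjugating elements for the outer involutions -/
def LD : List ℕ :=
  [2113083, 3458088, 971469, 1411056, 1069524, 1614087, 36167229, 40426047, 1601127, 551367, 40418919, 27671625,
    248715477, 210453183, 2093319, 977949, 210451815, 325244529, 1030527, 3635244]

/-- conjugating elements for the inner involutions -/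
def LE : List ℕ := [129195607, 258309562, 43095613, 86129230, 43053283, 86094180]

theorem LD_good : ∀ c ∈ LD, IsGood (dec c) := by decide +kernel
theorem LE_good : ∀ c ∈ LE, IsGood (dec c) := by decide +kernel

theorem LD_chk : ∀ c ∈ LH, Nat.mod (mulc c (barc c)) NN = Nat.mod c1 NN → ∃ d ∈ LD, mulc c (barc d) = d := by
  decide +kernel

theorem LE_chk : ∀ c ∈ LH, Nat.mod (mulc c c) NN = Nat.mod c1 NN → c = c1 ∨ c = cT ∨
    ((∃ d ∈ LE, mulc d cT = mulc cT d ∧ mulc d c = mulc cT' d) ∧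
      ∀ e ∈ LH, Nat.mod (mulc e e) NN = Nat.mod c1 NN → Nat.mod (mulc e c) NN = Nat.mod (mulc c e) NN →
        e = c1 ∨ e = cT ∨ e = c ∨ e = mulc cT c) := by
  decide +kernel

/-- the outer involutions are conjugate -/
theorem exists_outer {h : G} (hh : h ∈ H) (h1 : h * σ h = 1) : ∃ d : G, h * σ d = d := by
  obtain ⟨c, hc, r⟩ := hh
  obtain ⟨d, hd, e⟩ := LD_chk c hc ((r.mul r.bar).mod rp_one h1)
  have rd := rp_el (LD_good d hd)
  exact ⟨el d, (r.mul rd.bar).eq rd e⟩

/-- the four-groups of `H` -/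
theorem exists_inner {h : G} (hh : h ∈ H) (h2 : h * h = 1) (h1 : h ≠ 1) (ht : h ≠ el cT) :
    (∃ d : G, d * el cT = el cT * d ∧ d * h = el cT' * d) ∧
      ∀ e ∈ H, e * e = 1 → e * h = h * e → e = 1 ∨ e = el cT ∨ e = h ∨ e = el cT * h := by
  obtain ⟨c, hc, r⟩ := hh
  rcases LE_chk c hc ((r.mul r).mod rp_one h2) with e | e | ⟨⟨d, hd, e1, e2⟩, e3⟩
  · exact (h1 (r.eq rp_one e)).elim
  · exact (ht (r.eq rp_T e)).elim
  have rd := rp_el (LE_good d hd)
  refine ⟨⟨el d, (rd.mul rp_T).eq (rp_T.mul rd) e1, (rd.mul r).eq (rp_T'.mul rd) e2⟩, ?_⟩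
  rintro e ⟨a, ha, ra⟩ a2 ac
  rcases e3 a ha ((ra.mul ra).mod rp_one a2) ((ra.mul r).mod (r.mul ra) ac) with e4 | e4 | e4 | e4
  · exact Or.inl (ra.eq rp_one e4)
  · exact Or.inr (Or.inl (ra.eq rp_T e4))
  · exact Or.inr (Or.inr (Or.inl (ra.eq r e4)))
  · exact Or.inr (Or.inr (Or.inr (ra.eq (rp_T.mul r) e4)))

/-- `σ` is not inner -/
theorem σ_ne_conj (g : G) : σ ≠ MulAut.conj g := fun e => by
  have r : Rp (el 86113128) 86113128 := rp_el (by decide +kernel)
  have h1 : σ (el 86113128) = g * el 86113128 * g⁻¹ := by rw [e, MulAut.conj_apply]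
  have h2 : (mt (σ (el 86113128))).trace = (mt (el 86113128)).trace := by
    rw [h1, mt_mul, Matrix.trace_mul_comm, ← mt_mul, inv_mul_cancel_left]
  rw [r.bar, r] at h2
  revert h2
  decide +kernel

/-! ### elements of order 3 and 8 -/

/-- class 3A -/
def cZ : ℕ := 188335966
/-- class 3B -/
def cY : ℕ := 143119431
/-- class 3B -/
def cQ : ℕ := 4783779
/-- class 3B -/
def cY' : ℕ := 126252901
/-- order 8 -/
def cW : ℕ := 162469674
/-- conjugates `y` to `y q` -/
def cG1 : ℕ := 125286607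
/-- conjugates `y` to `y q²` -/
def cG2 : ℕ := 148049902
/-- conjugates `y` to `q` -/
def cG3 : ℕ := 2060865
/-- conjugates `y` to `y'` -/
def cG4 : ℕ := 334810629

theorem rp_Z : Rp (el cZ) cZ := rp_el (by decide +kernel)
theorem rp_Y : Rp (el cY) cY := rp_el (by decide +kernel)
theorem rp_Q : Rp (el cQ) cQ := rp_el (by decide +kernel)
theorem rp_Y' : Rp (el cY') cY' := rp_el (by decide +kernel)
theorem rp_W : Rp (el cW) cW := rp_el (by decide +kernel)
theorem rp_G1 : Rp (el cG1) cG1 := rp_el (by decide +kernel)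
theorem rp_G2 : Rp (el cG2) cG2 := rp_el (by decide +kernel)
theorem rp_G3 : Rp (el cG3) cG3 := rp_el (by decide +kernel)
theorem rp_G4 : Rp (el cG4) cG4 := rp_el (by decide +kernel)

theorem Rp.cube {g : G} {a : ℕ} (h : Rp g a) (e : mulc (mulc a a) a = c1) : g ^ 3 = 1 := by
  rw [pow_succ, pow_two]
  exact ((h.mul h).mul h).eq rp_one e

theorem Z_cube : el cZ ^ 3 = 1 := rp_Z.cube (by decide +kernel)
theorem Y_cube : el cY ^ 3 = 1 := rp_Y.cube (by decide +kernel)
theorem Q_cube : el cQ ^ 3 = 1 := rp_Q.cube (by decide +kernel)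
theorem Y'_cube : el cY' ^ 3 = 1 := rp_Y'.cube (by decide +kernel)
theorem Z_ne : el cZ ≠ 1 := rp_Z.ne rp_one (by decide +kernel)
theorem YZ : el cY * el cZ = el cZ * el cY := (rp_Y.mul rp_Z).eq (rp_Z.mul rp_Y) (by decide +kernel)
theorem QZ : el cQ * el cZ = el cZ * el cQ := (rp_Q.mul rp_Z).eq (rp_Z.mul rp_Q) (by decide +kernel)
theorem QY : el cQ * el cY = el cY * el cZ * el cQ :=
  (rp_Q.mul rp_Y).eq ((rp_Y.mul rp_Z).mul rp_Q) (by decide +kernel)
theorem G1Z : el cG1 * el cZ = el cZ * el cZ * el cG1 :=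
  (rp_G1.mul rp_Z).eq ((rp_Z.mul rp_Z).mul rp_G1) (by decide +kernel)
theorem G2Z : el cG2 * el cZ = el cZ * el cZ * el cG2 :=
  (rp_G2.mul rp_Z).eq ((rp_Z.mul rp_Z).mul rp_G2) (by decide +kernel)
theorem G3Z : el cG3 * el cZ = el cZ * el cG3 := (rp_G3.mul rp_Z).eq (rp_Z.mul rp_G3) (by decide +kernel)
theorem G1Y : el cG1 * el cY = el cY * el cQ * el cG1 :=
  (rp_G1.mul rp_Y).eq ((rp_Y.mul rp_Q).mul rp_G1) (by decide +kernel)
theorem G2Y : el cG2 * el cY = el cY * (el cQ * el cQ) * el cG2 :=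
  (rp_G2.mul rp_Y).eq ((rp_Y.mul (rp_Q.mul rp_Q)).mul rp_G2) (by decide +kernel)
theorem G3Y : el cG3 * el cY = el cQ * el cG3 := (rp_G3.mul rp_Y).eq (rp_Q.mul rp_G3) (by decide +kernel)
theorem G4Y : el cG4 * el cY = el cY' * el cG4 := (rp_G4.mul rp_Y).eq (rp_Y'.mul rp_G4) (by decide +kernel)
theorem WZ : el cW * el cZ = el cZ * el cZ * el cW :=
  (rp_W.mul rp_Z).eq ((rp_Z.mul rp_Z).mul rp_W) (by decide +kernel)
theorem σZ : σ (el cZ) * el cZ = 1 := (rp_Z.bar.mul rp_Z).eq rp_one (by decide +kernel)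
theorem σY : σ (el cY) * el cY = 1 := (rp_Y.bar.mul rp_Y).eq rp_one (by decide +kernel)

theorem rp_W4 : Rp (el cW ^ 4) (sqc (sqc cW)) := by
  have h : el cW ^ 4 = el cW * el cW * (el cW * el cW) := by simp only [pow_succ, pow_zero, one_mul, mul_assoc]
  rw [h]
  exact (rp_W.mul rp_W).mul (rp_W.mul rp_W)

theorem W4_ne : el cW ^ 4 ≠ 1 := rp_W4.ne rp_one (by decide +kernel)
theorem W4_sq : el cW ^ 4 * el cW ^ 4 = 1 := (rp_W4.mul rp_W4).eq rp_one (by decide +kernel)
theorem W4Z : el cW ^ 4 * el cZ = el cZ * el cW ^ 4 := (rp_W4.mul rp_Z).eq (rp_Z.mul rp_W4) (by decide +kernel)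

/-! ### generation -/

theorem eq_top_of_mem {B : Subgroup G} (h1 : el cY ∈ B) (h2 : el cY' ∈ B) : B = ⊤ := by
  have rU : Rp H277.U33.gU.su 40418919 := by
    show H277.U33.mU = dec 40418919
    decide +kernel
  have rY : Rp H277.U33.gY.su 149535975 := by
    show H277.U33.mY = dec 149535975
    decide +kernel
  have rX : Rp H277.U33.gX.su 330957439 := by
    show H277.U33.mX = dec 330957439
    decide +kernel
  have mU : H277.U33.gU.su ∈ B := by
    rw [rU.eq (rp_wd rp_Y rp_Y' [false, true, false, true, false, false]) (by decide +kernel)]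
    exact wd_mem h1 h2 _
  have mY : H277.U33.gY.su ∈ B := by
    rw [rY.eq (rp_wd rp_Y rp_Y' [false, false, true, false, false, true, false, true, true, false])
      (by decide +kernel)]
    exact wd_mem h1 h2 _
  have mX : H277.U33.gX.su ∈ B := by
    rw [rX.eq (rp_wd rp_Y rp_Y' [true, false, true, true, false, true, true, false, true, false, true, false, false])
      (by decide +kernel)]
    exact wd_mem h1 h2 _
  have h3 : (⊤ : Subgroup (PSU 3 K9 3)) ≤ B.map H277.U33.pj := by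
    rw [← H277.U33.closure_top, Subgroup.closure_le]
    rintro x (rfl | rfl | rfl)
    · exact ⟨_, mU, rfl⟩
    · exact ⟨_, mY, rfl⟩
    · exact ⟨_, mX, rfl⟩
  refine eq_top_iff.2 fun g _ => ?_
  obtain ⟨b, hb, e⟩ := h3 (Subgroup.mem_top (H277.U33.pj g))
  have h4 : b⁻¹ * g ∈ Subgroup.center G := QuotientGroup.eq.1 e
  rw [center_SU card_k9, Subgroup.mem_bot, inv_mul_eq_one] at h4
  exact h4 ▸ hb

end Cfsg.Agent.TwoF.XL.U33
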