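import Cfsg.Agent.TwoF.XL.Abs
import Cfsg.Agent.TwoF.Gen.BCov
import Cfsg.Agent.TwoF.Gen.ASmall
import Cfsg.Agent.TwoF.Gen.BPerm

/-!
# TwoF, `U₃(3)` in characteristic 2 (helper76): the numbers from the extraspecial group of order 27
-/

set_option autoImplicit false

namespace Cfsg.Agent.TwoF.XL.U33

open Cfsg.Agent.TwoF.Gen Module Subgroup

variable {Y : Type} [Group Y] [Finite Y] {V : Type} [AddCommGroup V] [Module (ZMod 2) V] [Finite V]
  {ρ : Representation (ZMod 2) Y V}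

omit [Finite Y] in
theorem isPGroup_zpowers {p n : ℕ} {a : Y} (ha : a ^ p ^ n = 1) : IsPGroup p (zpowers a) := by
  rintro ⟨_, k, rfl⟩
  refine ⟨n, Subtype.ext ?_⟩
  show (a ^ k) ^ p ^ n = 1
  rw [← zpow_natCast, ← zpow_mul, mul_comm, zpow_mul, zpow_natCast, ha, one_zpow]

theorem mem_normalizer_zpowers {g z : Y} (h : g * z * g⁻¹ ∈ zpowers z) : g ∈ normalizer (zpowers z : Set Y) := by
  refine mem_normalizer_fintype ?_
  rintro _ ⟨k, rfl⟩
  show g * z ^ k * g⁻¹ ∈ zpowers z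
  rw [← conj_zpow]
  exact zpow_mem h k

theorem even_of_modEq {c : ℕ} (h : 2 ^ c ≡ 1 [MOD 3]) : c % 2 = 0 := by
  rcases Nat.mod_two_eq_zero_or_one c with e | e
  · exact e
  have h1 : c = 2 * (c / 2) + 1 := by omega
  have h2 : (2 ^ 2) ^ (c / 2) ≡ 1 ^ (c / 2) [MOD 3] := Nat.ModEq.pow _ (by decide)
  rw [h1, pow_succ, pow_mul] at h
  have h3 := (h2.mul_right 2).symm.trans h
  rw [one_pow] at h3
  exact absurd h3 (by decide)

omit [Finite Y] in
theorem even_codOn {X : Subgroup Y} (hX : IsPGroup 3 X) {U : Submodule (ZMod 2) V} (hU : Inv ρ X U) :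
    codOn ρ U X % 2 = 0 := by
  have : Fact (Nat.Prime 3) := ⟨Nat.prime_three⟩
  have h := pow_cod_modEq (ρ := resOn ρ hU) (s := 3) (by rw [Nat.card_zmod]; decide) (hX.to_subgroup (X.subgroupOf X))
  rw [cod_resOn_subgroupOf hU le_rfl, Nat.card_zmod] at h
  exact even_of_modEq h

/-- on the fixed space of `z` the four subgroups of `Q / Z` have the same codimension `e`; so `3 ∣ e` -/
theorem three_dvd_codOn {z y q g1 g2 g3 : Y} (y3 : y ^ 3 = 1) (q3 : q ^ 3 = 1) (yz : y * z = z * y)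
    (qz : q * z = z * q) (qy : q * y = y * z * q) (n1 : g1 * z * g1⁻¹ ∈ zpowers z) (n2 : g2 * z * g2⁻¹ ∈ zpowers z)
    (n3 : g3 * z * g3⁻¹ ∈ zpowers z) (e1 : g1 * y = y * q * g1) (e2 : g2 * y = y * (q * q) * g2)
    (e3 : g3 * y = q * g3) : 3 ∣ codOn ρ (fx ρ (zpowers z)) (zpowers y) := by
  have hN : Inv ρ (normalizer (zpowers z : Set Y)) (fx ρ (zpowers z)) := inv_fx le_rfl
  let y' : normalizer (zpowers z : Set Y) := ⟨y, mem_normalizer_zpowers_of_comm yz⟩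
  let q' : normalizer (zpowers z : Set Y) := ⟨q, mem_normalizer_zpowers_of_comm qz⟩
  let f := (resOn ρ hN).toHomUnits
  let τ : Representation (ZMod 2) (Module.End (ZMod 2) (fx ρ (zpowers z)))ˣ (fx ρ (zpowers z)) := Units.coeHom _
  have : Finite (Module.End (ZMod 2) (fx ρ (zpowers z))) := DFunLike.finite _
  have hc : ∀ x : normalizer (zpowers z : Set Y), cod τ (zpowers (f x)) = cod (resOn ρ hN) (zpowers x) := fun x => by
    rw [← MonoidHom.map_zpowers, ← cod_comp]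
    rfl
  have hg : ∀ g x : normalizer (zpowers z : Set Y), (g : Y) * y = x * g →
      cod τ (zpowers (f x)) = codOn ρ (fx ρ (zpowers z)) (zpowers y) := fun g x e => by
    have h1 : x = g * y' * g⁻¹ := Subtype.ext (eq_mul_inv_of_mul_eq e.symm)
    rw [hc, h1, cod_zpowers_conj, cod_resOn, MonoidHom.map_zpowers]
    rfl
  have hyq : f y' * f q' = f q' * f y' := by
    refine Units.ext (LinearMap.ext fun v => Subtype.ext ?_)
    show ρ y (ρ q v) = ρ q (ρ y v)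
    rw [← rho_mul ρ q, qy, mul_assoc, ← qz, rho_mul, rho_mul, mem_fx_zpowers.1 v.2]
  have h := sum_cod_rank_two (ρ := τ) hyq Nat.prime_three (by decide)
    (by rw [← map_pow, show y' ^ 3 = 1 from Subtype.ext y3, map_one])
    (by rw [← map_pow, show q' ^ 3 = 1 from Subtype.ext q3, map_one])
  rw [Finset.sum_range_succ, Finset.sum_range_succ, Finset.sum_range_one, pow_zero, mul_one, pow_one, pow_two,
    ← map_mul, ← map_mul, ← map_mul, hg 1 y' (by simp [y']), hg ⟨g1, mem_normalizer_zpowers n1⟩ (y' * q') e1,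
    hg ⟨g2, mem_normalizer_zpowers n2⟩ (y' * (q' * q')) e2, hg ⟨g3, mem_normalizer_zpowers n3⟩ q' e3] at h
  omega

/-- the dichotomy -/
theorem nums (hf : Function.Injective ρ) {z y q g1 g2 g3 : Y} (z1 : z ≠ 1) (z3 : z ^ 3 = 1) (y3 : y ^ 3 = 1)
    (q3 : q ^ 3 = 1) (yz : y * z = z * y) (qz : q * z = z * q) (qy : q * y = y * z * q)
    (n1 : g1 * z * g1⁻¹ ∈ zpowers z) (n2 : g2 * z * g2⁻¹ ∈ zpowers z) (n3 : g3 * z * g3⁻¹ ∈ zpowers z)
    (e1 : g1 * y = y * q * g1) (e2 : g2 * y = y * (q * q) * g2) (e3 : g3 * y = q * g3) :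
    (cod ρ (zpowers z) = 6 ∧ cod ρ (zpowers y) = 4) ∨ 12 ≤ cod ρ (zpowers z ⊔ zpowers y) := by
  have h1 := heis_cod_eq (ρ := ρ) yz qz (mul_inv_eq_of_eq_mul qy) Nat.prime_three (by decide) y3 z3
  have h2 := cod_sup_eq (ρ := ρ) (zpowers z) (zpowers y)
  have h3 := three_dvd_codOn (ρ := ρ) y3 q3 yz qz qy n1 n2 n3 e1 e2 e3
  have h4 := even_codOn (ρ := ρ) (isPGroup_zpowers (n := 1) y3)
    (inv_fx (zpowers_le.2 (mem_normalizer_zpowers_of_comm yz)))
  have h5 := even_codOn (ρ := ρ) (isPGroup_zpowers (n := 1) z3) (inv_top _)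
  have h6 := cod_pos hf (zpowers_ne_bot.2 z1)
  rw [codOn_top] at h5
  omega

omit [Finite Y] [Finite V] in
/-- an involution acts quadratically -/
theorem sub_mem_fx {b : Y} (hb : b * b = 1) (u : V) : ρ b u - u ∈ fx ρ (zpowers b) := by
  have h2 : ∀ x : V, -x = x := fun x => by
    rw [← neg_one_smul (ZMod 2) x, show (-1 : ZMod 2) = 1 from rfl, one_smul]
  rw [mem_fx_zpowers, map_sub, ← rho_mul, hb, rho_one, ← neg_sub, h2]

theorem pow_four_of_cube {R : Type} [Ring R] (h2 : (1 + 1 : R) = 0) {a : R} (h3 : (a - 1) * (a - 1) * (a - 1) = 0) :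
    a * a * a * a = 1 := by
  obtain ⟨b, rfl⟩ : ∃ b, a = b + 1 := ⟨a - 1, (sub_add_cancel a 1).symm⟩
  rw [add_sub_cancel_right] at h3
  have h4 : (b + 1) * (b + 1) = b * b + 1 + (1 + 1) * b := by noncomm_ring
  have h5 : (b * b + 1) * (b * b + 1) = b * b * b * b + 1 + (1 + 1) * (b * b) := by noncomm_ring
  rw [mul_assoc, h4, h2, zero_mul, add_zero, h5, h2, h3, zero_mul, zero_mul, zero_add, add_zero]

/-- the small case -/
theorem cod_le_two {z w : Y} (z3 : z ^ 3 = 1) (w8 : w ^ 4 * w ^ 4 = 1) (hn : w * z * w⁻¹ ∈ zpowers z)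
    (hc : w ^ 4 * z = z * w ^ 4) (cz : cod ρ (zpowers z) ≤ 6) (hd : finrank (ZMod 2) (fx ρ (zpowers z)) ≤ 2) :
    cod ρ (zpowers (w ^ 4)) ≤ 2 := by
  have hW : Inv ρ (zpowers w) (fx ρ (zpowers z)) := inv_fx (zpowers_le.2 (mem_normalizer_zpowers hn))
  have hP : IsPGroup 2 (zpowers w) := isPGroup_zpowers (n := 3) (by rw [← w8, ← pow_add]; rfl)
  have hcub : Cub (resOn ρ hW) ⊤ := cub_of_cod_le_two (hP.to_subgroup ⊤) ((cod_le_finrank _).trans hd)
  have h1 : fx ρ (zpowers z) ≤ fx ρ (zpowers (w ^ 4)) := fun v hv => by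
    let w' : zpowers w := ⟨w, mem_zpowers w⟩
    have h3 := hcub w' trivial w' trivial w' trivial
    have h2 : (1 + 1 : Module.End (ZMod 2) (fx ρ (zpowers z))) = 0 :=
      (two_smul (ZMod 2) _).symm.trans (zero_smul (ZMod 2) _)
    have h4 := pow_four_of_cube h2 h3
    have h5 := congrArg Subtype.val (LinearMap.congr_fun h4 ⟨v, hv⟩)
    rw [mem_fx_zpowers, pow_succ, pow_succ, pow_two, rho_mul, rho_mul, rho_mul]
    exact h5
  have hL : LinearMap.range (ρ (w ^ 4) - 1) ≤ fx ρ (zpowers (w ^ 4)) := by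
    rintro _ ⟨u, rfl⟩
    exact sub_mem_fx w8 u
  have hz : ∀ u, ρ z ((ρ (w ^ 4) - 1) u) = (ρ (w ^ 4) - 1) (ρ z u) := fun u => by
    show ρ z (ρ (w ^ 4) u - u) = ρ (w ^ 4) (ρ z u) - ρ z u
    rw [map_sub, ← rho_mul, ← rho_mul, hc]
  have hI : Inv ρ (zpowers z) (LinearMap.range (ρ (w ^ 4) - 1)) := by
    rw [← cm_zpowers]
    exact inv_cm (zpowers_le.2 (mem_normalizer_zpowers_of_comm hc.symm)) (inv_top _)
  have h0 : LinearMap.range (ρ (w ^ 4) - 1) ⊓ fx ρ (zpowers z) = ⊥ := by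
    refine eq_bot_iff.2 ?_
    rintro _ ⟨⟨u, rfl⟩, hu⟩
    have h2 := mem_fx_zpowers.1 hu
    have h3 : u + ρ z u + ρ z (ρ z u) ∈ fx ρ (zpowers z) := by
      rw [pow_succ, pow_two] at z3
      rw [mem_fx_zpowers, map_add, map_add, ← rho_mul ρ z z (ρ z u), ← rho_mul ρ (z * z), z3, rho_one]
      abel
    have h4 : (ρ (w ^ 4) - 1) (u + ρ z u + ρ z (ρ z u)) = 0 := sub_eq_zero.2 (mem_fx_zpowers.1 (h1 h3))
    rw [map_add, map_add, ← hz, ← hz, ← hz, h2, h2, ← two_smul (ZMod 2), show (2 : ZMod 2) = 0 from rfl, zero_smul,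
      zero_add] at h4
    exact h4
  have h2 := finrank_le_codOn hL h0
  have h3 := cod_sup_eq (ρ := ρ) (zpowers (w ^ 4)) (zpowers z)
  have h4 : cod ρ (zpowers (w ^ 4) ⊔ zpowers z) = cod ρ (zpowers z) := by
    delta cod
    rw [fx_sup, inf_eq_right.2 h1]
  have h5 := even_codOn (isPGroup_zpowers (n := 1) z3) hI
  rw [codOn_of_inf_eq_bot h0] at h5
  have h6 := cod_zpowers (ρ := ρ) (w ^ 4)
  omega

/-- an involution which inverts `z` and `y` -/
theorem cod_le_of_inverts_two {z y s : Y} (z3 : z ^ 3 = 1) (y3 : y ^ 3 = 1) (yz : y * z = z * y) (s2 : s * s = 1)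
    (sz : s * z * s⁻¹ = z⁻¹) (sy : s * y * s⁻¹ = y⁻¹) :
    cod ρ (zpowers z ⊔ zpowers y) ≤ 2 * cod ρ (zpowers s) := by
  have hz : z ∈ zpowers z ⊔ zpowers y := mem_sup_left (mem_zpowers z)
  have hy : y ∈ zpowers z ⊔ zpowers y := mem_sup_right (mem_zpowers y)
  have hi : ∀ x : Y, x ^ 3 = 1 → x⁻¹ * x⁻¹ = x := fun x hx => by
    rw [pow_succ, pow_two] at hx
    rw [← mul_inv_rev, inv_eq_iff_mul_eq_one, hx]
  have h := cod_comm_le (ρ := ρ) (B := zpowers z ⊔ zpowers y) (comm_sup_zpowers yz)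
    (card_ne_zero_of_exp Nat.prime_three (by decide) (exp_sup_zpowers yz y3 z3)) (a := s) (s := 2) (n := 1)
    (by rw [pow_one, pow_two, s2]) (fun x hx => ?_) fun B hB => ?_
  · omega
  · have h1 : zpowers z ⊔ zpowers y ≤ (zpowers z ⊔ zpowers y).comap (MulAut.conj s).toMonoidHom := by
      refine sup_le (zpowers_le.2 ?_) (zpowers_le.2 ?_)
      · show s * z * s⁻¹ ∈ zpowers z ⊔ zpowers y
        rw [sz]
        exact inv_mem hz
      · show s * y * s⁻¹ ∈ zpowers z ⊔ zpowers y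
        rw [sy]
        exact inv_mem hy
    exact h1 hx
  · have h1 := hB z hz
    have h2 := hB y hy
    rw [sz, hi z z3] at h1
    rw [sy, hi y y3] at h2
    exact sup_le (zpowers_le.2 h1) (zpowers_le.2 h2)

end Cfsg.Agent.TwoF.XL.U33
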