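import Cfsg.Agent.TwoF.XL.U33.Span
import Cfsg.Agent.TwoF.XL.U33.Num
import Cfsg.Agent.TwoF.XL.U33.Frame

/-!
# TwoF, `U₃(3)` in characteristic 2 (helper76): the row of S3089
-/

set_option autoImplicit false

namespace Cfsg.Agent.TwoF.XL.U33

open Cfsg.Agent.TwoF.Gen Module Subgroup

section inner

variable {V : Type} [AddCommGroup V] [Module (ZMod 2) V] [Finite V] {ρ : Representation (ZMod 2) G V}

theorem conj_mem_sq {g z : G} (h : g * z = z * z * g) : g * z * g⁻¹ ∈ zpowers z := by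
  rw [mul_inv_eq_of_eq_mul h]
  exact mul_mem (mem_zpowers z) (mem_zpowers z)

theorem conj_mem_self {g z : G} (h : g * z = z * g) : g * z * g⁻¹ ∈ zpowers z := by
  rw [mul_inv_eq_of_eq_mul h]
  exact mem_zpowers z

/-- an involution of `K` is an offender, or the group `R` of order 9 has codimension at least 12 -/
theorem dich (hf : Function.Injective ρ) (h0 : fx ρ ⊤ = ⊥) :
    cod ρ (zpowers (el cW ^ 4)) ≤ 2 ∨ 12 ≤ cod ρ (zpowers (el cZ) ⊔ zpowers (el cY)) := by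
  have := finite_G
  refine (nums hf Z_ne Z_cube Y_cube Q_cube YZ QZ QY (conj_mem_sq G1Z) (conj_mem_sq G2Z)
    (conj_mem_self G3Z) G1Y G2Y G3Y).imp_left fun ⟨h1, h2⟩ => ?_
  have h3 : zpowers (el cY) ⊔ zpowers (el cY') = ⊤ :=
    eq_top_of_mem (mem_sup_left (mem_zpowers _)) (mem_sup_right (mem_zpowers _))
  have h4 := cod_sup_le (ρ := ρ) (zpowers (el cY)) (zpowers (el cY'))
  rw [h3, cod_of_fx_eq_bot h0, ← mul_inv_eq_of_eq_mul G4Y, cod_zpowers_conj] at h4
  have h5 := cod_add (ρ := ρ) (zpowers (el cZ))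
  exact cod_le_two Z_cube W4_sq (conj_mem_sq WZ) W4Z h1.le (by omega)

end inner

variable {Y : Type} [Group Y] [Finite Y] {V : Type} [AddCommGroup V] [Module (ZMod 2) V] [Finite V]
  {ρ : Representation (ZMod 2) Y V} {K : Subgroup Y} {ι : G →* Y} {s : Y}

/-- outer involutions have codimension at least 6 -/
theorem Fr.six_le (f : Fr K ι s) (h12 : 12 ≤ cod ρ (zpowers (ι (el cZ)) ⊔ zpowers (ι (el cY)))) {b : Y}
    (hb : b ∈ f.U) (hK : b ∉ K) (h2 : b * b = 1) : 6 ≤ cod ρ (zpowers b) := by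
  obtain ⟨h, hh, rfl | rfl⟩ := hb
  · exact (hK (f.mem h)).elim
  rw [f.outer_mul, ← map_one ι] at h2
  obtain ⟨d, hd⟩ := exists_outer hh (f.inj h2)
  have h3 : ι d * s * (ι d)⁻¹ = ι h * s := by
    rw [mul_inv_eq_iff_eq_mul, mul_assoc, f.comm, ← mul_assoc, ← map_mul, hd]
  have h4 := cod_le_of_inverts_two (ρ := ρ) (z := ι (el cZ)) (y := ι (el cY)) (s := s)
    (by rw [← map_pow, Z_cube, map_one]) (by rw [← map_pow, Y_cube, map_one]) (by rw [← map_mul, YZ, map_mul]) f.sq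
    (by rw [f.conj, eq_inv_of_mul_eq_one_left σZ, map_inv]) (by rw [f.conj, eq_inv_of_mul_eq_one_left σY, map_inv])
  rw [← h3, cod_zpowers_conj]
  omega

/-- an elementary abelian subgroup of `U` of order at least 8, not inside `K` -/
theorem Fr.struct (f : Fr K ι s) {A : Subgroup Y} (hA : IsElementaryAbelian 2 A) (hU : A ≤ f.U) (hK : ¬ A ≤ K)
    (h8 : 8 ≤ Nat.card A) : Nat.card A ≤ 8 ∧ ∃ h d : G, ι (el cT) ∈ A ∧ ι h ∈ A ∧ d * el cT = el cT * d ∧
      d * h = el cT' * d := by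
  have := finite_G
  have : K.Normal := normal_of_index_eq_two f.index
  have c1 : K.relIndex A = 2 := by
    have h1 : K.relIndex A ∣ 2 := f.index ▸ relIndex_dvd_index_of_normal K A
    exact ((Nat.dvd_prime Nat.prime_two).1 h1).resolve_left fun e => hK (relIndex_eq_one.1 e)
  have c2 : Nat.card (A.comap ι) * 2 = Nat.card A := by
    have h1 : Nat.card (A.comap ι) = Nat.card (K.subgroupOf A) := by
      rw [← card_map_of_injective f.inj, map_comap_eq, f.range, ← subgroupOf_map_subtype,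
        card_map_of_injective A.subtype_injective]
    rw [h1, ← c1]
    exact card_mul_index _
  have hH : ∀ e ∈ A.comap ι, e ∈ H := fun e he => by
    obtain ⟨h, hh, e1 | e1⟩ := hU he
    · exact f.inj e1 ▸ hh
    · exact (f.outer_notMem h (e1 ▸ f.mem e)).elim
  have hs : ∀ e ∈ A.comap ι, e * e = 1 := fun e he => f.inj (by rw [map_mul, map_one, ← pow_two]; exact hA.2 _ he)
  have c3 : Nat.card (A.comap ι) = (A.comap ι : Set G).ncard := rfl
  obtain ⟨h, hh, hn⟩ : ∃ h ∈ (A.comap ι : Set G), h ∉ ({1, el cT} : Set G) := by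
    by_contra hc
    push Not at hc
    have h1 := (Set.ncard_le_ncard hc).trans ((Set.ncard_insert_le _ _).trans (by rw [Set.ncard_singleton]))
    omega
  obtain ⟨⟨d, d1, d2⟩, h4⟩ := exists_inner (hH h hh) (hs h hh) (fun e => hn (Or.inl e)) fun e => hn (Or.inr e)
  have h5 : (A.comap ι : Set G) ⊆ {1, el cT, h, el cT * h} := fun e he =>
    h4 e (hH e he) (hs e he) (f.inj (by rw [map_mul, map_mul]; exact elemAb_comm hA he hh))
  have h6 : ({1, el cT, h, el cT * h} : Set G).ncard ≤ 4 :=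
    (Set.ncard_insert_le _ _).trans (Nat.succ_le_succ ((Set.ncard_insert_le _ _).trans (Nat.succ_le_succ
      ((Set.ncard_insert_le _ _).trans (by rw [Set.ncard_singleton])))))
  have h7 := (Set.ncard_le_ncard h5).trans h6
  have h9 := Set.eq_of_subset_of_ncard_le h5 (by omega)
  have h10 : el cT ∈ (A.comap ι : Set G) := by
    rw [h9]
    exact Or.inr (Or.inl rfl)
  exact ⟨by omega, h, d, h10, hh, d1, d2⟩

/-- the large case does not occur -/
theorem Fr.large (f : Fr K ι s) (hi : Irr ρ K) (h12 : 12 ≤ cod ρ (zpowers (ι (el cZ)) ⊔ zpowers (ι (el cY))))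
    {A : Subgroup Y} (hA : Off 2 ρ A) (hU : A ≤ f.U) (hK : ¬ A ≤ K) : False := by
  have := finite_G
  have hs : ∀ b ∈ A, b * b = 1 := fun b hb => (pow_two b).symm.trans (hA.1.2 b hb)
  have h6 : ∀ b ∈ A, b ∉ K → 6 ≤ cod ρ (zpowers b) := fun b hb hn => f.six_le h12 (hU hb) hn (hs b hb)
  obtain ⟨b₀, hb₀, hn₀⟩ := SetLike.not_le_iff_exists.1 hK
  obtain ⟨r, -, c1, c2⟩ := hA.exists_card
  have c3 : 3 ≤ r := by
    have h1 := (h6 b₀ hb₀ hn₀).trans (cod_mono (zpowers_le.2 hb₀))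
    omega
  obtain ⟨c4, h, d, ht, hh, d1, d2⟩ := f.struct hA.1 hU hK (c1 ▸ Nat.pow_le_pow_right (n := 2) (by norm_num) c3)
  have c5 : r ≤ 3 := (Nat.pow_le_pow_iff_right (a := 2) (by norm_num)).1 (c1 ▸ c4)
  have h1 : ∀ b ∈ A, b ∉ K → ∀ u, ρ b u - u ∈ fx ρ A := fun b hb hn u => by
    rw [fx_eq_of_cod_le (zpowers_le.2 hb) (by have := h6 b hb hn; omega)]
    exact sub_mem_fx (hs b hb) u
  have h2 : ∀ u, ρ (ι h) u - u ∈ fx ρ A := fun u => by
    have h3 := add_mem (h1 _ (mul_mem hh hb₀) (fun e => hn₀ ((K.mul_mem_cancel_left (f.mem h)).1 e)) (ρ b₀ u))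
      (h1 b₀ hb₀ hn₀ u)
    rwa [← rho_mul, mul_assoc, hs b₀ hb₀, mul_one, sub_add_sub_cancel] at h3
  have h3 := finrank_le_ten (ρ := ρ.comp ι) (fun U hU => hi U (by
    rintro b hb
    rw [← f.range] at hb
    obtain ⟨g, rfl⟩ := hb
    exact hU g trivial)) fun u => by
      obtain ⟨w, rfl⟩ : ∃ w, u = ρ (ι d) w := ⟨_, (rho_apply_inv ρ (ι d) u).symm⟩
      show ρ (ι (el cT)) (ρ (ι (el cT')) (ρ (ι d) w) - ρ (ι d) w) = ρ (ι (el cT')) (ρ (ι d) w) - ρ (ι d) w
      rw [← rho_mul ρ (ι (el cT')), ← map_mul, ← d2, map_mul, rho_mul, ← map_sub, ← rho_mul ρ (ι (el cT)), ← map_mul,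
        ← d1, map_mul, rho_mul, h2 w _ ht]
  have h4 := cod_le_finrank (ρ := ρ) (zpowers (ι (el cZ)) ⊔ zpowers (ι (el cY)))
  omega

/-- **the row of S3089 for `U₃(3)` in characteristic 2** -/
theorem row89_U33 {F : Type} [Field F] [Fintype F] (hF : Fintype.card F = 3 ^ 2) : Row89 2 (PSU 3 F 3) := by
  intro Y _ _ V _ _ _ K ρ h e A hA hi _ _ hK
  obtain ⟨ι, s, f⟩ := exists_fr hF h e fun e => hK (e ▸ le_top)
  rcases dich (ρ := ρ.comp ι) (h.faithful.comp f.inj)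
    (by rw [fx_comp, ← MonoidHom.range_eq_map, f.range, h.fx_K]) with h1 | h1
  · rw [cod_comp, MonoidHom.map_zpowers] at h1
    refine ⟨_, zpowers_le.2 (f.mem _), off_zpowers (orderOf_eq_prime ?_ ?_) h1⟩
    · rw [pow_two, ← map_mul, W4_sq, map_one]
    · exact fun e => W4_ne (f.inj (e.trans (map_one ι).symm))
  · rw [cod_comp, Subgroup.map_sup, MonoidHom.map_zpowers, MonoidHom.map_zpowers] at h1
    obtain ⟨g, hg⟩ := f.exists_conj (elemAb_isPGroup hA.1)
    refine (f.large hi h1 (hA.conj g) hg fun h2 => hK fun a ha => ?_).elim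
    have h3 := h.normal.conj_mem _ (h2 ⟨a, ha, rfl⟩) g⁻¹
    have h4 : g⁻¹ * (g * a * g⁻¹) * g⁻¹⁻¹ = a := by group
    exact h4 ▸ h3

end Cfsg.Agent.TwoF.XL.U33
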